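import Mathlib
import Cfsg.Agent.Lib.B6T.N1a
import Cfsg.Agent.Lib.A6C.SR

/-! `dl = 1`: sectional rank 4. -/

set_option autoImplicit false
set_option maxRecDepth 100000

namespace H60M.A6

open Subgroup H69 H36.SW H80.PC

variable {G : Type*} [Group G] [Finite G]

namespace N1b

theorem fin {E S : Subgroup G} (hS : IsSylowIn 2 S E) {a b c : G} (ha : a ∈ S) (hb : b ∈ S) (hc : c ∈ S)
    (aa : a * a = 1) (bb : b * b = 1) (cc : c * c = 1) (ab : a * b = b * a) (ac : a * c = c * a)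
    (bc : b * c = c * b) (a1 : a ≠ 1) (b1 : b ≠ 1) (nab : b ≠ a) (c1 : c ≠ 1) (nca : c ≠ a) (ncb : c ≠ b)
    (ncab : c ≠ a * b)
    (hC : ∀ x ∈ S, x * a = a * x → x * b = b * x → x * c = c * x →
      x = 1 ∨ x = a ∨ x = b ∨ x = c ∨ x = a * b ∨ x = a * c ∨ x = b * c ∨ x = a * b * c) :
    Cfsg.SectionalPRankLE 2 4 E := by
  refine H80.A6C.sr8' hS.subgroupOf_top (a := ⟨a, hS.le ha⟩) (b := ⟨b, hS.le hb⟩) (c := ⟨c, hS.le hc⟩)
    ha hb hc (Subtype.ext aa) (Subtype.ext bb) (Subtype.ext cc) (Subtype.ext ab) (Subtype.ext ac)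
    (Subtype.ext bc) (fun e => a1 (congrArg Subtype.val e)) (fun e => b1 (congrArg Subtype.val e))
    (fun e => nab (congrArg Subtype.val e)) (fun e => c1 (congrArg Subtype.val e))
    (fun e => nca (congrArg Subtype.val e)) (fun e => ncb (congrArg Subtype.val e))
    (fun e => ncab (congrArg Subtype.val e)) fun x hx h1 h2 h3 => ?_
  generalize hK : closure ({⟨a, hS.le ha⟩, ⟨b, hS.le hb⟩, ⟨c, hS.le hc⟩} : Set E) = K
  have ma : (⟨a, hS.le ha⟩ : E) ∈ K := hK ▸ subset_closure (by simp)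
  have mb : (⟨b, hS.le hb⟩ : E) ∈ K := hK ▸ subset_closure (by simp)
  have mc : (⟨c, hS.le hc⟩ : E) ∈ K := hK ▸ subset_closure (by simp)
  have k : ∀ y : E, (x : G) = y → y ∈ K → x ∈ K := fun y e m => Subtype.ext e ▸ m
  rcases hC x hx (congrArg Subtype.val h1) (congrArg Subtype.val h2) (congrArg Subtype.val h3) with
    e | e | e | e | e | e | e | e
  exacts [k 1 e (one_mem _), k _ e ma, k _ e mb, k _ e mc, k (_ * _) e (mul_mem ma mb),
    k (_ * _) e (mul_mem ma mc), k (_ * _) e (mul_mem mb mc), k (_ * _ * _) e (mul_mem (mul_mem ma mb) mc)]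

theorem k1 : ∀ m : Bool, ∀ g ∈ [1, 4, 8, 16, 32, 64, 128], ∀ c < 256, c / 2 % 2 = 0 →
    mu (PT m) g c / 2 % 2 = 0 ∧ mu (PT m) (iv (PT m) g) c / 2 % 2 = 0 := by decide +kernel

theorem k2 : ∀ m : Bool, ∀ c < 256, c / 2 % 2 = 0 ∨ mu (PT m) c 2 / 2 % 2 = 0 := by decide +kernel

theorem k3 : ∀ m : Bool, ∀ c < 256, c / 2 % 2 = 0 → mu (PT m) c c = 0 → c = 0 ∨ lk (rT m) c = 1 ∨
    (lk (rT m) c / 4 < 64 ∧ lk (rT m) c = 2 * (2 * (lk (rT m) c / 4))) := by decide +kernel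

theorem k4' : ∀ m : Bool, ∀ c < 256, (c / 2 % 2 = 0 ∧ mu (PT m) c 64 = mu (PT m) 64 c ∧
    mu (PT m) c 40 = mu (PT m) 40 c ∧ mu (PT m) c 1 = mu (PT m) 1 c) →
    c ∈ [0, 64, 40, 1, mu (PT m) 64 40, mu (PT m) 64 1, mu (PT m) 40 1, mu (PT m) (mu (PT m) 64 40) 1] := by
  decide +kernel

theorem k4 (m : Bool) (c : ℕ) (hc : c < 256) (h0 : c / 2 % 2 = 0) (h1 : mu (PT m) c 64 = mu (PT m) 64 c)
    (h2 : mu (PT m) c 40 = mu (PT m) 40 c) (h3 : mu (PT m) c 1 = mu (PT m) 1 c) :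
    c = 0 ∨ c = 64 ∨ c = 40 ∨ c = 1 ∨ c = mu (PT m) 64 40 ∨ c = mu (PT m) 64 1 ∨ c = mu (PT m) 40 1 ∨
      c = mu (PT m) (mu (PT m) 64 40) 1 := by
  have := k4' m c hc ⟨h0, h1, h2, h3⟩
  simpa only [List.mem_cons, List.not_mem_nil, or_false] using this

theorem k5 : ∀ m : Bool, mu (PT m) 64 64 = 0 ∧ mu (PT m) 40 40 = 0 ∧ mu (PT m) 1 1 = 0 ∧
    mu (PT m) 64 40 = mu (PT m) 40 64 ∧ mu (PT m) 64 1 = mu (PT m) 1 64 ∧ mu (PT m) 40 1 = mu (PT m) 1 40 ∧
    1 ≠ mu (PT m) 64 40 := by decide +kernel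

theorem len (m : Bool) : 2 ^ (PT m).length = 256 := by cases m <;> decide +kernel

end N1b

open N1b

namespace Fr
variable {F : Fr G} {a b p q um η π : G}

theorem TP.N1b_mem (h : F.TP a b p um η) {x : G} :
    x ∈ closure {y | y ∈ [p, F.v1, F.v2, a, b, F.u1, F.z]} ↔
      ∃ c < 256, c / 2 % 2 = 0 ∧ x = ev (p :: F.LU a b) c := by
  obtain ⟨m, hm⟩ := h.exm
  have ok := h.okT hm
  have g0 : ∀ y ∈ [p, F.v1, F.v2, a, b, F.u1, F.z], ∃ g ∈ [1, 4, 8, 16, 32, 64, 128],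
      y = ev (p :: F.LU a b) g := by
    simp [LU, ev]
  constructor
  · intro hx
    induction hx using closure_induction_left with
    | one => exact ⟨0, by norm_num, by norm_num, (ev_zero _).symm⟩
    | mul_left y hy x _ ih =>
      obtain ⟨c, hc, h0, e⟩ := ih
      obtain ⟨g, hg, e'⟩ := g0 y hy
      exact ⟨_, len m ▸ mu_lt _ _ _, (k1 m g hg c hc h0).1, by rw [ok.mul, ← e, ← e']⟩
    | inv_mul_cancel y hy x _ ih =>
      obtain ⟨c, hc, h0, e⟩ := ih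
      obtain ⟨g, hg, e'⟩ := g0 y hy
      exact ⟨_, len m ▸ mu_lt _ _ _, (k1 m g hg c hc h0).2, by rw [ok.mul, ok.inv, ← e, ← e']⟩
  · rintro ⟨c, -, h0, e⟩
    have e2 : x = (if c % 2 = 1 then p else 1) * ev [F.v1, F.v2, a, b, F.u1, F.z] (c / 2 / 2) := by
      rw [e, LU, ev, ev, if_neg (show ¬ c / 2 % 2 = 1 by omega), one_mul]
    rw [e2]
    refine mul_mem ?_ (ev_mem (fun y hy => subset_closure (List.mem_cons_of_mem _ hy)) _)
    split_ifs
    · exact subset_closure (by simp)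
    · exact one_mem _

theorem TW.n1 (h : F.TW a b p q um η) (d : F.dl = 1) : Cfsg.SectionalPRankLE 2 4 F.E := by
  obtain ⟨m, hm⟩ := h.toTP.exm
  have ok := h.toTP.okT hm
  have hS := h.sylT d
  have lt : ∀ c d, mu (H80.PC.PT m) c d < 256 := fun c d => len m ▸ mu_lt _ _ _
  have mM := @TP.N1b_mem G _ _ F a b p um η h.toTP
  have mT := @TP.memT G _ _ F a b p um η h.toTP
  have et : F.t = ev (p :: F.LU a b) 2 := by simp [LU, ev]
  have ep : p = ev (p :: F.LU a b) 1 := by simp [LU, ev]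
  have ME : closure {y | y ∈ [p, F.v1, F.v2, a, b, F.u1, F.z]} ≤ F.E := by
    refine (closure_le _).2 fun y hy => ?_
    rcases List.mem_cons.1 hy with e | e
    · rw [e]; exact h.zp.memE
    · exact h.UE (subset_closure (by simpa using e))
  generalize closure {y | y ∈ [p, F.v1, F.v2, a, b, F.u1, F.z]} = M at mM ME
  generalize closure {y | y ∈ p :: F.LU a b} = S at hS mT
  have h2 : ∀ s ∈ S, s ∈ M ∨ s * F.t ∈ M := fun s hs => by
    obtain ⟨c, hc, e⟩ := mT.1 hs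
    exact (k2 m c hc).imp (fun k => mM.2 ⟨c, hc, k, e⟩) fun k => mM.2 ⟨_, lt _ _, k, by rw [ok.mul, ← e, ← et]⟩
  have tE : F.t ∉ F.E := by
    refine H60M.A7.thompson F.En F.Es F.ncE F.tt hS (fun x hx => ?_) (mT.2 ⟨2, by norm_num, et⟩) h2 fun g hg => ?_
    · obtain ⟨c, hc, -, e⟩ := mM.1 hx
      exact mT.2 ⟨c, hc, e⟩
    · obtain ⟨c, hc, h0, e⟩ := mM.1 hg
      have om : F.Om (ev (p :: F.LU a b) c) := ⟨g, e⟩
      have cc : mu (H80.PC.PT m) c c = 0 := h.toTP.injT (lt _ _) (by norm_num) (by rw [ok.mul, om.sq.1, ev_zero])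
      have c0 : c ≠ 0 := fun k => om.sq.2 (by rw [k, ev_zero])
      have e1 := ((clsT m c hc cc).resolve_left c0).1
      have e2 := (k3 m c hc h0 cc).resolve_left c0
      generalize lk (rT m) c = r at e1 e2
      rw [← e1, ok.cj] at om
      have om' := Om.of_cj _ om
      rcases e2 with e2 | ⟨e2, e3⟩
      · rw [e2, ← ep] at om'
        exact h.zp.nOm om'
      · rw [e3, ev_bit0] at om'
        exact h.n00 (h.toTP.mem00.2 ⟨_, e2, rfl⟩) om'
  have hE := hS.inf_normal (N := F.E) le_top (fun g _ => by haveI := F.En; simp [normalizer_eq_top])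
  have sm : ∀ c < 256, c / 2 % 2 = 0 → ev (p :: F.LU a b) c ∈ S ⊓ F.E := fun c hc h0 =>
    ⟨mT.2 ⟨c, hc, rfl⟩, ME (mM.2 ⟨c, hc, h0, rfl⟩)⟩
  obtain ⟨q1, q2, q3, q4, q5, q6, q7⟩ := k5 m
  have inj := @TP.injT G _ _ F a b p um η h.toTP
  have z0 := ev_zero (p :: F.LU a b)
  have ml := ok.mul
  generalize ev (p :: F.LU a b) = f at mM sm inj z0 ml
  generalize hμ : mu (H80.PC.PT m) = μ at q1 q2 q3 q4 q5 q6 q7 ml lt
  have ne : ∀ {c d : ℕ}, c < 256 → d < 256 → c ≠ d → f c ≠ f d := fun hc hd n e => n (inj hc hd e)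
  refine fin hE (sm 64 (by norm_num) (by norm_num)) (sm 40 (by norm_num) (by norm_num))
    (sm 1 (by norm_num) (by norm_num)) (by rw [← ml, q1, z0]) (by rw [← ml, q2, z0]) (by rw [← ml, q3, z0])
    (by rw [← ml, q4, ml]) (by rw [← ml, q5, ml]) (by rw [← ml, q6, ml])
    (z0 ▸ ne (by norm_num) (by norm_num) (by norm_num)) (z0 ▸ ne (by norm_num) (by norm_num) (by norm_num))
    (ne (by norm_num) (by norm_num) (by norm_num)) (z0 ▸ ne (by norm_num) (by norm_num) (by norm_num))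
    (ne (by norm_num) (by norm_num) (by norm_num)) (ne (by norm_num) (by norm_num) (by norm_num))
    (by rw [← ml]; exact ne (by norm_num) (lt _ _) q7) fun x hx h1 h3 h4 => ?_
  have xM : x ∈ M := (h2 x hx.1).resolve_right fun k => tE ((mul_mem_cancel_left (mem_inf.1 hx).2).1 (ME k))
  obtain ⟨c, hc, h0, e⟩ := mM.1 xM
  rw [e, ← ml, ← ml] at h1 h3 h4
  have := k4 m c hc h0
  rw [hμ] at this
  rw [e, ← ml, ← ml, ← ml, ← ml, ← z0]
  exact (this (inj (lt _ _) (lt _ _) h1) (inj (lt _ _) (lt _ _) h3) (inj (lt _ _) (lt _ _) h4)).imp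
    (congrArg f) (Or.imp (congrArg f) (Or.imp (congrArg f) (Or.imp (congrArg f) (Or.imp (congrArg f)
      (Or.imp (congrArg f) (Or.imp (congrArg f) (congrArg f)))))))

end Fr

end H60M.A6
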