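import Mathlib
import Cfsg.Agent.Lib.B6T.Cod

/-! The six cosets. -/

set_option autoImplicit false
set_option maxRecDepth 100000

namespace H60M.A6

open Subgroup H69 H36.SW H80.PC

variable {G : Type*} [Group G] [Finite G]

namespace OmBH

theorem d1 : ∀ c < 128, mu PU c 1 = mu PU 1 c → c / 2 / 2 / 2 % 2 ≠ 1 ∧ c / 2 / 2 / 2 / 2 % 2 ≠ 1 := by
  decide +kernel

theorem d2 : ∀ c ∈ [0, 32, 64, 96], ∀ d < 128, mu PU c d = mu PU d c := by decide +kernel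

theorem d3 : ∀ c < 128, (∀ d ∈ [1, 2, 4, 8, 16], mu PU c d = mu PU d c) → c ∈ [0, 32, 64, 96] := by
  decide +kernel

set_option synthInstance.maxSize 2000 in
set_option synthInstance.maxHeartbeats 400000 in
theorem d4 : ∀ e m m' : Bool, ∀ c < 128, c % 2 = 1 → c % 32 ≠ 31 → mu PU c c = 0 →
    (∃ y < 32, cj PU y 1 = c) ∨ (∃ y < 32, cj PU y (act PU (imP m) 1) = c) ∨
    (∃ y < 32, cj PU y (act PU (imQ e m') 1) = c) ∨
    (∃ y < 32, cj PU y (act PU (imP m) (act PU (imQ e m') 1)) = c) ∨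
    (∃ y < 32, cj PU y (act PU (imQ e m') (act PU (imP m) 1)) = c) ∨
    (∃ y < 32, cj PU y (act PU (imP m) (act PU (imQ e m') (act PU (imP m) 1))) = c) := by
  decide +kernel

theorem d5 : ∀ e m m' : Bool, ∀ y < 32, cj PU y (act PU (imQ e m') 32) ≠ 32 ∧
    cj PU y (act PU (imP m) (act PU (imQ e m') 32)) ≠ 32 ∧
    cj PU y (act PU (imQ e m') (act PU (imP m) 32)) ≠ 32 ∧
    cj PU y (act PU (imP m) (act PU (imQ e m') (act PU (imP m) 32))) ≠ 32 := by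
  decide +kernel

theorem len : 2 ^ PU.length = 128 := by decide +kernel

theorem mul (a b : ℕ) : mu PU a b < 128 := len ▸ mu_lt PU a b
theorem cjl (a b : ℕ) : cj PU a b < 128 := len ▸ cj_lt PU a b

end OmBH

namespace Fr
variable {F : Fr G} {a b p q um η π : G}

theorem TP.TU (h : F.TP a b p um η) : F.T ≤ F.U0 a b := by
  have m : ∀ x ∈ ({F.t, F.v1, F.v2, a, b, F.u1, F.z} : Set G), x ∈ F.U0 a b := fun x hx => subset_closure hx
  have _ := h.pp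
  refine (closure_le _).2 ?_
  rintro x (rfl | rfl | rfl | rfl | rfl)
  · exact m _ (by simp)
  · exact m _ (by simp)
  · exact m _ (by simp)
  · exact m _ (by simp)
  · rw [F.u2e]
    exact mul_mem (m _ (by simp)) (m _ (by simp))

theorem TP.ombH_comm (h : F.TP a b p um η) {c d : ℕ} :
    ev (F.LU a b) c * ev (F.LU a b) d = ev (F.LU a b) d * ev (F.LU a b) c ↔ mu PU c d = mu PU d c := by
  rw [← h.okU.mul, ← h.okU.mul]
  exact ⟨h.injU (OmBH.mul _ _) (OmBH.mul _ _), fun e => by rw [e]⟩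

theorem TP.cenU (h : F.TP a b p um η) : F.U0 a b ⊓ centralizer {F.t} = F.T := by
  refine le_antisymm ?_ (le_inf h.TU F.TC)
  rintro x ⟨hx, hc⟩
  obtain ⟨c, hc', rfl⟩ := h.memU.1 hx
  have e1 : ev (F.LU a b) 1 = F.t := by simp [LU, ev]
  have e2 : ev (F.LU a b) c * F.t = F.t * ev (F.LU a b) c := mem_centralizer_singleton_iff.1 hc
  rw [← e1, h.ombH_comm] at e2
  obtain ⟨k1, k2⟩ := OmBH.d1 c hc' e2
  have zT : F.z ∈ F.T := F.W1T (F.X1W1 F.b2_zX)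
  have it : ∀ (P : Prop) [Decidable P] {y : G}, y ∈ F.T → (if P then y else 1) ∈ F.T := by
    intro P _ y hy
    split_ifs
    exacts [hy, one_mem _]
  simp only [LU, ev, if_neg k1, if_neg k2, one_mul, mul_one]
  exact mul_mem (it _ F.b2_tT) (mul_mem (it _ F.b2_v1T) (mul_mem (it _ F.b2_v2T)
    (mul_mem (it _ F.b2_uT) (it _ zT))))

theorem TP.isPU (h : F.TP a b p um η) : IsPGroup 2 (F.U0 a b) := by
  rw [F.U0_eq]
  exact h.okU.isP h.kerU

theorem TP.memF (h : F.TP a b p um η) {x : G} : x ∈ F.F0 ↔ ∃ c ∈ [0, 32, 64, 96], x = ev (F.LU a b) c := by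
  have _ := h.pp
  have e0 : ev (F.LU a b) 0 = 1 := ev_zero _
  have e1 : ev (F.LU a b) 32 = F.u1 := by simp [LU, ev]
  have e2 : ev (F.LU a b) 64 = F.z := by simp [LU, ev]
  have e3 : ev (F.LU a b) 96 = F.z * F.u1 := by simp [LU, ev, F.zu1]
  rw [F.memF0]
  simp only [List.mem_cons, List.not_mem_nil, or_false, exists_eq_or_imp, exists_eq_left, e0, e1, e2, e3]
  tauto

theorem TP.ombH_Z (h : F.TP a b p um η) {x : G} :
    x ∈ F.F0 ↔ x ∈ F.U0 a b ∧ ∀ y ∈ F.U0 a b, x * y = y * x := by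
  rw [h.memF]
  constructor
  · rintro ⟨c, hc, rfl⟩
    refine ⟨F.evU a b c, fun y hy => ?_⟩
    obtain ⟨d, hd, rfl⟩ := h.memU.1 hy
    exact h.ombH_comm.2 (OmBH.d2 c hc d hd)
  · rintro ⟨hx, hc⟩
    obtain ⟨c, hc', rfl⟩ := h.memU.1 hx
    exact ⟨c, OmBH.d3 c hc' fun d _ => h.ombH_comm.1 (hc _ (F.evU a b d)), rfl⟩

/-- `F0 = Z(U0)` -/
theorem TP.NF (h : F.TP a b p um η) : 𝐍(F.U0 a b) ≤ 𝐍(F.F0) := by
  intro g hg
  refine B2.norm_gen fun x hx => ?_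
  have hx' : x ∈ F.F0 := subset_closure hx
  obtain ⟨h1, h2⟩ := h.ombH_Z.1 hx'
  refine h.ombH_Z.2 ⟨(mem_normalizer_iff.1 hg x).1 h1, fun y hy => ?_⟩
  have hy' : g⁻¹ * y * g ∈ F.U0 a b := (mem_normalizer_iff.1 hg _).2 (by
    rwa [show g * (g⁻¹ * y * g) * g⁻¹ = y by group])
  calc g * x * g⁻¹ * y = g * (x * (g⁻¹ * y * g)) * g⁻¹ := by group
    _ = g * ((g⁻¹ * y * g) * x) * g⁻¹ := by rw [h2 _ hy']
    _ = _ := by group

/-- an element that acts on the generators by codes normalises `U0` -/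
theorem TP.nU (h : F.TP a b p um η) {g : G} {im : List ℕ}
    (e : List.Forall₂ (fun y c => g * y * g⁻¹ = ev (F.LU a b) c) (F.LU a b) im) : g ∈ 𝐍(F.U0 a b) := by
  rw [F.U0_eq]
  refine B2.norm_gen fun x hx => ?_
  obtain ⟨c, rfl⟩ := ex_code hx
  rw [h.okU.conj e, ← F.U0_eq]
  exact F.evU a b _

theorem TP.ombH_w (h : F.TP a b p um η) {w : G} {f : ℕ → ℕ} (hw : w ∈ 𝐍(F.U0 a b))
    (hf : ∀ c, w * ev (F.LU a b) c * w⁻¹ = ev (F.LU a b) (f c)) (y : ℕ) :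
    ev (F.LU a b) y * w ∈ 𝐍(F.U0 a b) ∧
      ev (F.LU a b) y * w * F.t * (ev (F.LU a b) y * w)⁻¹ = ev (F.LU a b) (cj PU y (f 1)) ∧
      (ev (F.LU a b) y * w * F.u1 = F.u1 * (ev (F.LU a b) y * w) → cj PU y (f 32) = 32) := by
  have e1 : ev (F.LU a b) 1 = F.t := by simp [LU, ev]
  have e2 : ev (F.LU a b) 32 = F.u1 := by simp [LU, ev]
  have k : ∀ c, ev (F.LU a b) y * w * ev (F.LU a b) c * (ev (F.LU a b) y * w)⁻¹ =
      ev (F.LU a b) (cj PU y (f c)) := fun c => by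
    rw [h.okU.cj, ← hf]; group
  refine ⟨mul_mem (le_normalizer (F.evU a b y)) hw, by rw [← e1, k], fun e => ?_⟩
  refine h.injU (OmBH.cjl _ _) (by norm_num) ?_
  rw [← k, e2, e, mul_inv_cancel_right]

theorem TW.six (h : F.TW a b p q um η) {c : ℕ} (hc : c < 128) (h2 : mu PU c c = 0) (h1 : c % 2 = 1)
    (h0 : c % 32 ≠ 31) : ∃ n ∈ 𝐍(F.U0 a b), n * F.t * n⁻¹ = ev (F.LU a b) c ∧
      (n * F.u1 = F.u1 * n → ∃ x ∈ closure {y | y ∈ p :: F.LU a b}, x * F.t * x⁻¹ = ev (F.LU a b) c) := by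
  obtain ⟨e, m', hq⟩ := h.hq
  obtain ⟨m, hm⟩ := h.toTP.exm
  have k := h.toTP
  have np : p ∈ 𝐍(F.U0 a b) := k.nU (k.imp hm)
  have nq : q ∈ 𝐍(F.U0 a b) := k.nU hq
  have ap := k.actp hm
  have aq := k.okU.conj hq
  have yT : ∀ y, ev (F.LU a b) y ∈ closure {y | y ∈ p :: F.LU a b} := fun y =>
    ev_mem (fun x hx => subset_closure (List.mem_cons_of_mem _ hx)) y
  have pT : p ∈ closure {y | y ∈ p :: F.LU a b} := subset_closure List.mem_cons_self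
  rcases OmBH.d4 e m m' c hc h1 h0 h2 with ⟨y, hy, r⟩ | ⟨y, hy, r⟩ | ⟨y, hy, r⟩ | ⟨y, hy, r⟩ | ⟨y, hy, r⟩ |
    ⟨y, hy, r⟩
  · obtain ⟨r1, r2, -⟩ := k.ombH_w (w := 1) (f := fun c => c) (one_mem _) (fun c => by group) y
    rw [r] at r2
    exact ⟨_, r1, r2, fun _ => ⟨_, mul_mem (yT y) (one_mem _), r2⟩⟩
  · obtain ⟨r1, r2, -⟩ := k.ombH_w np ap y
    rw [r] at r2
    exact ⟨_, r1, r2, fun _ => ⟨_, mul_mem (yT y) pT, r2⟩⟩
  · obtain ⟨r1, r2, r3⟩ := k.ombH_w nq aq y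
    rw [r] at r2
    exact ⟨_, r1, r2, fun s => absurd (r3 s) (OmBH.d5 e m m' y hy).1⟩
  · obtain ⟨r1, r2, r3⟩ := k.ombH_w (f := fun c => act PU (imP m) (act PU (imQ e m') c)) (mul_mem np nq)
      (fun c => by rw [← ap, ← aq]; group) y
    rw [r] at r2
    exact ⟨_, r1, r2, fun s => absurd (r3 s) (OmBH.d5 e m m' y hy).2.1⟩
  · obtain ⟨r1, r2, r3⟩ := k.ombH_w (f := fun c => act PU (imQ e m') (act PU (imP m) c)) (mul_mem nq np)
      (fun c => by rw [← aq, ← ap]; group) y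
    rw [r] at r2
    exact ⟨_, r1, r2, fun s => absurd (r3 s) (OmBH.d5 e m m' y hy).2.2.1⟩
  · obtain ⟨r1, r2, r3⟩ := k.ombH_w (f := fun c => act PU (imP m) (act PU (imQ e m') (act PU (imP m) c)))
      (mul_mem np (mul_mem nq np)) (fun c => by rw [← ap, ← aq, ← ap]; group) y
    rw [r] at r2
    exact ⟨_, r1, r2, fun s => absurd (r3 s) (OmBH.d5 e m m' y hy).2.2.2⟩

end Fr

end H60M.A6
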