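import Mathlib
import Cfsg.Agent.Lib.B7S.Y3
import Cfsg.Agent.Lib.B6T.K0
import Cfsg.Agent.Lib.LocStruct.Res

/-! The group `Q`. -/

set_option autoImplicit false

namespace H60M.A6

open Subgroup H69 H36.SW

variable {G : Type*} [Group G] [Finite G]

namespace Fr
variable {F : Fr G} {a b p q um um' η η' π : G}

omit [Finite G] in
theorem qa_cj {n x : G} (hu : n * F.u1 = F.u1 * n) : n * (x * F.u1) * n⁻¹ = n * x * n⁻¹ * F.u1 := by
  rw [← conj_mul, mul_inv_eq_of_eq_mul hu]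

omit [Finite G] in
theorem qa_exL (F : Fr G) : ∃ L : Subgroup G, ∀ n, n ∈ L ↔ n ∈ 𝐍(F.W1) ∧ n * F.u1 = F.u1 * n ∧
    ∀ x ∈ F.X1, n * x * n⁻¹ = x ∨ n * x * n⁻¹ = x * F.u1 := by
  refine ⟨{ carrier := {n | n ∈ 𝐍(F.W1) ∧ n * F.u1 = F.u1 * n ∧
              ∀ x ∈ F.X1, n * x * n⁻¹ = x ∨ n * x * n⁻¹ = x * F.u1}
            mul_mem' := ?_, one_mem' := ?_, inv_mem' := ?_ }, fun _ => Iff.rfl⟩
  · rintro n m ⟨h1, h2, h3⟩ ⟨k1, k2, k3⟩
    refine ⟨mul_mem h1 k1, by rw [mul_assoc, k2, ← mul_assoc, h2, mul_assoc], fun x hx => ?_⟩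
    have e : n * m * x * (n * m)⁻¹ = n * (m * x * m⁻¹) * n⁻¹ := by group
    rw [e]
    rcases k3 x hx with k | k <;> rw [k]
    · exact h3 x hx
    · rw [qa_cj h2]
      rcases h3 x hx with h | h <;> rw [h]
      · exact .inr rfl
      · left; rw [mul_assoc, F.u11, mul_one]
  · exact ⟨one_mem _, by simp, fun x _ => .inl (by simp)⟩
  · rintro n ⟨h1, h2, h3⟩
    refine ⟨inv_mem h1, by rw [inv_mul_eq_iff_eq_mul, ← mul_assoc, h2, mul_inv_cancel_right], fun x hx => ?_⟩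
    rcases h3 x hx with h | h
    · left
      conv_lhs => rw [← h]
      group
    · right
      have e : n * (x * F.u1) * n⁻¹ = x := by rw [qa_cj h2, h, mul_assoc, F.u11, mul_one]
      conv_lhs => rw [← e]
      group

theorem qa_gen {n : G} (hu : n * F.u1 = F.u1 * n) (hz : n * F.z = F.z * n) (hv : n * F.v1 * n⁻¹ = F.v1 * F.u1) :
    ∀ x ∈ F.X1, n * x * n⁻¹ = x ∨ n * x * n⁻¹ = x * F.u1 := by
  intro x hx
  obtain ⟨b, d, e, rfl⟩ := F.memX1.1 hx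
  have hz' : n * F.z ^ (d : ℕ) * n⁻¹ = F.z ^ (d : ℕ) := by rw [← conj_pow, B2.cj_of_comm hz]
  have hu' : n * F.u1 ^ (e : ℕ) * n⁻¹ = F.u1 ^ (e : ℕ) := by rw [← conj_pow, B2.cj_of_comm hu]
  rw [← conj_mul, ← conj_mul, hz', hu']
  have c : F.u1 * (F.z ^ (d : ℕ) * F.u1 ^ (e : ℕ)) = F.z ^ (d : ℕ) * F.u1 ^ (e : ℕ) * F.u1 :=
    ((Commute.pow_right (show Commute F.u1 F.z from F.zu1.symm) _).mul_right ((Commute.refl _).pow_right _)).eq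
  fin_cases b
  · left; simp
  · right
    simp only [Fin.mk_one, Fin.isValue, Fin.val_one, pow_one]
    rw [hv, mul_assoc, mul_assoc, c]; group

theorem TA.exQ (h : F.TA a b) : ∃ Q η, F.TQ a b Q η := by
  obtain ⟨L, hL⟩ := qa_exL F
  have ai : a⁻¹ = a := inv_eq_of_mul_eq_one_left h.aa
  have bi : b⁻¹ = b := inv_eq_of_mul_eq_one_left h.bb
  have zW := F.X1W1 F.b2_zX
  have uW := F.X1W1 F.b2_uX
  have bu : b * F.u1 = F.u1 * b := by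
    have := h.bu
    rwa [F.u2_eq F.hu1, ← mul_assoc, h.bz, mul_assoc, mul_assoc, mul_right_inj] at this
  have aX : a ∈ 𝐂(F.X1) := B2.cent_gen (by
    rintro _ (rfl | rfl | rfl)
    exacts [h.az.symm, h.av.symm, h.au.symm])
  have aW : a ∈ 𝐍(F.W1) := B2.norm_gen (by
    rintro _ (rfl | rfl | rfl | rfl)
    · rw [ai, h.at']; exact mul_mem F.b2_tW uW
    · rw [B2.cj_of_comm h.az]; exact zW
    · rw [B2.cj_of_comm h.av]; exact F.b2_vW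
    · rw [B2.cj_of_comm h.au]; exact uW)
  have bW : b ∈ 𝐍(F.W1) := B2.norm_gen (by
    rintro _ (rfl | rfl | rfl | rfl)
    · rw [bi, h.bt]; exact mul_mem F.b2_tW (F.X1W1 F.u2X1)
    · rw [B2.cj_of_comm h.bz]; exact zW
    · rw [bi, h.bv1]; exact mul_mem F.b2_vW (F.X1W1 F.u2X1)
    · rw [B2.cj_of_comm bu]; exact uW)
  have bX : b ∈ 𝐍(F.X1) := B2.norm_gen (by
    rintro _ (rfl | rfl | rfl)
    · rw [B2.cj_of_comm h.bz]; exact F.b2_zX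
    · rw [bi, h.bv1]; exact mul_mem F.b2_vX F.u2X1
    · rw [B2.cj_of_comm bu]; exact F.b2_uX)
  obtain ⟨N, hN⟩ : ∃ N, N = 𝐍(F.W1) ⊓ (𝐍(F.X1) ⊓ centralizer {F.u1}) := ⟨_, rfl⟩
  have mN : ∀ g, g ∈ N ↔ g ∈ 𝐍(F.W1) ∧ g ∈ 𝐍(F.X1) ∧ g * F.u1 = F.u1 * g := fun g => by
    rw [hN, mem_inf, mem_inf, mem_centralizer_singleton_iff]
  have tN : ∀ g, g * F.t = F.t * g → g ∈ 𝐍(F.W1) → g ∈ N := fun g h1 h2 =>
    (mN g).2 ⟨h2, F.b2_NX (F.nW1 g h1 h2).2 (F.nW1 g h1 h2).1, (F.nW1 g h1 h2).1⟩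
  have TN : F.T ≤ N := fun g hg => tN g (mem_centralizer_singleton_iff.1 (F.TC hg)) (F.TN1 hg)
  have PN : closure ({F.t, F.v1, F.v2, F.u1, F.u2, a, b} : Set G) ≤ N := (closure_le _).2 (by
    rintro _ (rfl | rfl | rfl | rfl | rfl | rfl | rfl)
    exacts [TN F.b2_tT, TN F.b2_v1T, TN F.b2_v2T, TN F.b2_uT, TN F.b2_u2T,
      (mN _).2 ⟨aW, centralizer_le_normalizer _ aX, h.au⟩, (mN _).2 ⟨bW, bX, bu⟩])
  have LN : L ≤ N := fun n hn => by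
    obtain ⟨h1, h2, h3⟩ := (hL n).1 hn
    refine (mN n).2 ⟨h1, B2.norm_gen fun x hx => ?_, h2⟩
    have hx' : x ∈ F.X1 := subset_closure hx
    rcases h3 x hx' with e | e <;> rw [e]
    exacts [hx', mul_mem hx' F.b2_uX]
  have NL : N ≤ 𝐍(L) := fun g hg => by
    obtain ⟨g1, g2, g3⟩ := (mN g).1 hg
    refine mem_normalizer_of_cj_le (map_le_iff_le_comap.2 fun n hn => ?_)
    obtain ⟨h1, h2, h3⟩ := (hL n).1 hn
    show g * n * g⁻¹ ∈ L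
    refine (hL _).2 ⟨mul_mem (mul_mem g1 h1) (inv_mem g1), ?_, fun x hx => ?_⟩
    · have := B2.comm_cj g h2
      rwa [B2.cj_of_comm g3] at this
    · have e : g * n * g⁻¹ * x * (g * n * g⁻¹)⁻¹ = g * (n * (g⁻¹ * x * g⁻¹⁻¹) * n⁻¹) * g⁻¹ := by group
      rw [e]
      rcases h3 _ (conj_mem_of_mem_normalizer (inv_mem g2) hx) with k | k <;> rw [k]
      · left; group
      · right; rw [qa_cj g3]; group
  obtain ⟨S, hS, PS⟩ := exists_isSylowIn_le h.isP PN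
  have TS : F.T ≤ S := le_trans (b := closure ({F.t, F.v1, F.v2, F.u1, F.u2, a, b} : Set G)) ((closure_le _).2 (by
    rintro _ (rfl | rfl | rfl | rfl | rfl) <;> exact subset_closure (by simp))) PS
  have aS : a ∈ S := PS (subset_closure (by simp))
  have bS : b ∈ S := PS (subset_closure (by simp))
  have hQ := hS.inf_normal LN NL
  have SQ : S ≤ 𝐍(S ⊓ L) := le_normalizer_inf le_normalizer (hS.le.trans NL)
  have XL : ∀ g ∈ 𝐂(F.X1), g ∈ 𝐍(F.W1) → g ∈ L := fun g h1 h2 =>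
    (hL g).2 ⟨h2, (h1 _ F.b2_uX).symm, fun x hx => .inl (conj_eq_of_mem_centralizer h1 hx)⟩
  have WQ : F.W1 ≤ S ⊓ L := fun w hw =>
    ⟨TS (F.W1T hw), XL w (fun x hx => F.b2_WC hw x (F.X1W1 hx)) (le_normalizer hw)⟩
  have aQ : a ∈ S ⊓ L := ⟨aS, XL a aX aW⟩
  have pu : b * F.v2 * F.u1 = F.u1 * (b * F.v2) := by rw [mul_assoc, ← F.u1v2, ← mul_assoc, bu, mul_assoc]
  have pQ : b * F.v2 ∈ S ⊓ L := by
    refine ⟨mul_mem bS (TS F.b2_v2T), (hL _).2 ⟨mul_mem bW (F.TN1 F.b2_v2T), pu, qa_gen pu ?_ ?_⟩⟩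
    · rw [mul_assoc, ← F.B1zv2, ← mul_assoc, h.bz, mul_assoc]
    · have e : b * F.v2 * F.v1 * (b * F.v2)⁻¹ = b * (F.v2 * F.v1 * F.v2⁻¹) * b⁻¹ := by group
      rw [e, F.b2_v2v, ← conj_mul, B2.cj_of_comm h.bz, bi, h.bv1, F.u2_eq F.hu1, ← mul_assoc, F.zv1, mul_assoc,
        F.b2_zz]
  generalize S ⊓ L = Q at hQ SQ WQ aQ pQ
  have QN : Q ≤ 𝐍(F.W1) := fun g hg => ((hL g).1 (hQ.le hg)).1
  obtain ⟨O, hO, dO, nO⟩ := F.exO1
  have LQ : L ≤ Q ⊔ O := hQ.eq_of_res_le le_sup_left (res_le_of_pow_mem fun l hl => ⟨2, by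
    obtain ⟨h1, h2, h3⟩ := (hL l).1 hl
    have c2 : l * l ∈ 𝐂(F.X1) := fun x hx => by
      refine (B2.comm_of_cj ?_).symm
      have e : l * l * x * (l * l)⁻¹ = l * (l * x * l⁻¹) * l⁻¹ := by group
      rw [e]
      rcases h3 x hx with k | k
      · rw [k, k]
      · rw [k, qa_cj h2, k, mul_assoc, F.u11, mul_one]
    have c4 : l * l * (l * l) ∈ 𝐂(F.W1) := B2.cent_gen (by
      rintro _ (rfl | rfl | rfl | rfl)
      · refine (B2.comm_of_cj ?_).symm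
        have e : l * l * (l * l) * F.t * (l * l * (l * l))⁻¹ = l * l * (l * l * F.t * (l * l)⁻¹) * (l * l)⁻¹ := by group
        rw [e]
        rcases h.ca.k0 h.nx1 c2 (mul_mem h1 h1) with k | k
        · rw [k, k]
        · rw [k, qa_cj (c2 _ F.b2_uX).symm, k, mul_assoc, F.u11, mul_one]
      exacts [mul_mem c2 c2 _ F.b2_zX, mul_mem c2 c2 _ F.b2_vX, mul_mem c2 c2 _ F.b2_uX])
    obtain ⟨w, hw, o, ho, e⟩ := dO _ c4
    rw [show l ^ 2 ^ 2 = l * l * (l * l) by rw [show 2 ^ 2 = 2 + 2 from rfl, pow_add, sq], e]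
    exact mul_mem_sup (WQ hw) ho⟩)
  obtain ⟨n, hn, l, hl, e⟩ := hQ.frattini' (NL (tN _ F.y1t F.y1N))
  obtain ⟨q, hq, o, ho, eo⟩ := (mem_sup_of_le_normalizer_right (QN.trans nO)).1 (LQ hl)
  have oi := inv_mem ho
  have ηN : F.y1 * o⁻¹ ∈ 𝐍(Q) := by
    rw [e, eo, ← mul_assoc, mul_inv_cancel_right]
    exact mul_mem hn (le_normalizer hq)
  generalize o⁻¹ = o at oi ηN
  have vT := F.b2_v2T
  have vN := SQ (TS vT)
  have cO : ∀ o ∈ O, o ∈ 𝐍(Q) → o ∈ 𝐂(Q) := fun o ho hn =>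
    A7.odd_norm_cent hQ.isP (fun o h => ((hO o).1 h).2) (QN.trans nO) ho hn
  have yO : ∀ o ∈ O, F.y1 * o * F.y1⁻¹ ∈ O := fun o => conj_mem_of_mem_normalizer (nO F.y1N)
  refine ⟨Q, F.y1 * o, h, hQ.isP, QN, WQ, aQ, pQ, ηN, vN, fun w hw => ?_,
    cO _ ?_ (mul_mem (mul_mem ηN ηN) ηN), cO _ ?_ (mul_mem (mul_mem ηN vN) (mul_mem ηN vN))⟩
  · conv_rhs => rw [← conj_eq_of_mem_centralizer ((hO o).1 oi).1 hw]
    group
  · have y3 : F.y1 ^ 3 ∈ O :=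
      (hO _).2 ⟨H60M.Y3 F.y1t F.y1u F.y1z F.y1v F.zz F.v11 F.zv1, F.y13.of_dvd_nat (orderOf_pow_dvd 3)⟩
    have := mul_mem (mul_mem (mul_mem (yO _ oi) (yO _ (yO _ oi))) (yO _ (yO _ (yO _ oi)))) y3
    convert this using 1
    simp only [pow_succ, pow_zero]; group
  · have := mul_mem (yO _ oi) (conj_mem_of_mem_normalizer (nO (F.TN1 vT)) oi)
    rw [← F.v2y, F.b2_v2i] at this
    convert this using 1
    simp only [mul_assoc]
    rw [← mul_assoc F.v2 F.v2, F.v22, one_mul]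

end Fr

end H60M.A6
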