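import Mathlib
import Cfsg.Agent.Lib.B6T.SA1

/-! `dl ≠ 1`: the involution `π`. -/

set_option autoImplicit false
set_option maxRecDepth 100000

namespace H60M.A6

open Subgroup H69 H36.SW H80.PC

variable {G : Type*} [Group G] [Finite G]

/-- adjusting `π0` by an element of odd order so that it lies in one 2-group with `U` and `D` -/
theorem sa2_adj {U O : Subgroup G} (hU : IsPGroup 2 U) (hO : ∀ o ∈ O, Odd (orderOf o))
    (hN : 𝐍(U) ≤ 𝐍(O)) {D π0 y o : G} (DN : D ∈ 𝐍(U)) (D2 : P2 D) (πN : π0 ∈ 𝐍(U)) (π2 : P2 π0)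
    (hy : y ∈ U) (ho : o ∈ O) (e : D * π0 * D⁻¹ * π0 = y * o) :
    ∃ w ∈ O, D * (w * π0 * w⁻¹) * D⁻¹ * (w * π0 * w⁻¹) = y := by
  haveI : Fact (Nat.Prime 2) := ⟨Nat.prime_two⟩
  have hQ := H60M.A7.isP_sup hU π2 πN
  have QN : U ⊔ zpowers π0 ≤ 𝐍(O) := (sup_le le_normalizer (zpowers_le.2 πN)).trans hN
  have sQ := H60M.A7.syl_sup_odd hQ hO QN
  have πQ : π0 ∈ U ⊔ zpowers π0 := mem_sup_right (mem_zpowers _)
  have DN1 : D ∈ 𝐍((U ⊔ zpowers π0 ⊔ O : Subgroup G)) := by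
    refine mem_normalizer_of_cj_le ?_
    rw [cj_sup, cj_sup, cj_eq_of_mem_normalizer DN, cj_eq_of_mem_normalizer (hN DN), cj_zpowers]
    refine sup_le (sup_le (le_sup_left.trans le_sup_left) (zpowers_le.2 ?_)) le_sup_right
    rw [eq_mul_inv_of_mul_eq e]
    exact mul_mem (mul_mem (mem_sup_left (mem_sup_left hy)) (mem_sup_right ho))
      (inv_mem (mem_sup_left πQ))
  obtain ⟨S, hS, le⟩ := exists_isSylowIn_le (H60M.A7.isP_sup hU D2 DN)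
    (L := 𝐍((U ⊔ zpowers π0 ⊔ O : Subgroup G)))
    (sup_le ((le_sup_left.trans le_sup_left).trans le_normalizer) (zpowers_le.2 DN1))
  obtain ⟨n, hn, en⟩ := sQ.conj (hS.inf_normal le_normalizer le_rfl)
  obtain ⟨o1, ho1, k⟩ := H60M.A7.frat_odd hQ hO QN (g := n) (en.le.trans inf_le_right)
  have πS : o1⁻¹ * π0 * o1⁻¹⁻¹ ∈ S := by
    have : o1⁻¹ * π0 * o1⁻¹⁻¹ ∈ (U ⊔ zpowers π0) ^ᶜ n := by
      rw [mem_cj]
      have := conj_mem_of_mem_normalizer' k πQ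
      convert this using 1
      group
    exact (en.le this).1
  have DS : D ∈ S := le (mem_sup_right (mem_zpowers _))
  refine ⟨o1⁻¹, inv_mem ho1, ?_⟩
  have w : π0⁻¹ * o1⁻¹ * π0 * o1 ∈ O := mul_mem (conj_mem_of_mem_normalizer' (hN πN) (inv_mem ho1)) ho1
  have m1 : y⁻¹ * (D * (o1⁻¹ * π0 * o1⁻¹⁻¹) * D⁻¹ * (o1⁻¹ * π0 * o1⁻¹⁻¹)) ∈ O := by
    have := mul_mem (mul_mem ho (conj_mem_of_mem_normalizer' (hN πN)
      (conj_mem_of_mem_normalizer (hN DN) w))) w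
    convert this using 1
    rw [show o = y⁻¹ * (D * π0 * D⁻¹ * π0) by rw [e, inv_mul_cancel_left]]
    group
  have m2 : y⁻¹ * (D * (o1⁻¹ * π0 * o1⁻¹⁻¹) * D⁻¹ * (o1⁻¹ * π0 * o1⁻¹⁻¹)) ∈ S :=
    mul_mem (inv_mem (le (mem_sup_left hy))) (mul_mem (mul_mem (mul_mem DS πS) (inv_mem DS)) πS)
  exact (inv_mul_eq_one.1 ((P2.of_mem hS.isP m2).eq_one (hO _ m1))).symm

namespace Fr
variable {F : Fr G} {a b p q um η π : G}

theorem TP.exS (h : F.TP a b p um η) (d : F.dl ≠ 1) (db : F.dl * a * F.dl⁻¹ = b) :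
    ∃ π, F.TS a b p um η π := by
  obtain ⟨e, he⟩ := F.exe d
  obtain ⟨m, hm⟩ := h.exm
  obtain ⟨o, oC, oo, ec⟩ := h.cube d db he hm rfl
  obtain ⟨O, hO, hN, -⟩ := F.exOP h.isPU h.TU h.cenU.le
  have pN := h.nU (h.imp hm)
  have DN := h.nU (h.imd d db he)
  have pi : p⁻¹ = p := inv_eq_of_mul_eq_one_left h.pp
  have D2 : P2 F.dl := P2.of_mul_self (P2.of_sq (by rw [he]; cases e; exacts [one_mul 1, F.tt]))
  generalize hπ : p * (F.dl * p * F.dl⁻¹) * p = π0 at ec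
  have πN : π0 ∈ 𝐍(F.U0 a b) := hπ ▸ mul_mem (mul_mem pN (mul_mem (mul_mem DN pN) (inv_mem DN))) pN
  have ππ : π0 * π0 = 1 := by
    calc π0 * π0 = p * F.dl * p * F.dl⁻¹ * (p * p) * F.dl * p * F.dl⁻¹ * p := by rw [← hπ]; group
      _ = p * F.dl * p * F.dl⁻¹ * 1 * F.dl * p * F.dl⁻¹ * p := by rw [h.pp]
      _ = p * F.dl * (p * p) * F.dl⁻¹ * p := by group
      _ = 1 := by rw [h.pp, mul_one, mul_inv_cancel_right, h.pp]
  obtain ⟨w, hw, ew⟩ := sa2_adj h.isPU (fun o ho => ((hO o).1 ho).2) hN DN D2 πN (P2.of_sq ππ)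
    (F.evU a b _) ((hO o).2 ⟨oC, oo⟩) ec
  have wC : ∀ x ∈ F.U0 a b, x * w = w * x := ((hO w).1 hw).1
  refine ⟨w * π0 * w⁻¹, h, d, db, ?_, ?_, fun x hx => ?_, ⟨(w * p * F.dl)⁻¹, ?_⟩, ?_⟩
  · have d4 : F.dl * b * F.dl⁻¹ = cond e F.t 1 * a * (cond e F.t 1)⁻¹ := by rw [← db, ← he]; group
    cases e
    · exact Or.inl (by simpa using d4)
    · exact Or.inr (d4.trans (ii' F.tt (sw2 h.aa F.tt h.at' F.tu1 h.au)))
  · rw [conj_mul, ππ, mul_one, mul_inv_cancel]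
  · have k : π0 * x * π0 ∈ F.U0 a b := by
      have := conj_mem_of_mem_normalizer πN hx
      rwa [inv_eq_of_mul_eq_one_left ππ] at this
    rw [show p * (F.dl * p * F.dl⁻¹) * p * x * (p * (F.dl * p * F.dl⁻¹) * p) = π0 * x * π0 by rw [hπ]]
    calc w * π0 * w⁻¹ * x * (w * π0 * w⁻¹) = w * π0 * w⁻¹ * (x * w) * π0 * w⁻¹ := by group
      _ = w * (π0 * x * π0) * w⁻¹ := by rw [wC x hx]; group
      _ = π0 * x * π0 := by rw [← wC _ k, mul_inv_cancel_right]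
  · rw [← hπ]
    calc _ = F.dl⁻¹ * (p⁻¹ * p) * F.dl * p * F.dl⁻¹ * (p * p) * F.dl := by group
      _ = p := by rw [h.pp]; group
  · rw [ew]
    cases e <;> cases m
    · exact Or.inl ⟨he, hm, by simp [LU, ev, mul_assoc]⟩
    · exact Or.inr (Or.inl ⟨he, hm, by simp [LU, ev]⟩)
    · exact Or.inr (Or.inr (Or.inl ⟨he, hm, by simp [LU, ev, mul_assoc]⟩))
    · exact Or.inr (Or.inr (Or.inr ⟨he, hm, by simp [LU, ev]⟩))

end Fr

end H60M.A6
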