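import Mathlib
import Cfsg.Agent.Lib.B6T.OmA
import Cfsg.Agent.Lib.B6T.K0

/-! `dl ≠ 1`: classes outside `Ω`. -/

set_option autoImplicit false
set_option maxRecDepth 100000

namespace H60M.A6

open Subgroup H69 H36.SW H80.PC

variable {G : Type*} [Group G] [Finite G]

namespace SB1

/-- an elementary abelian subgroup given by a list of codes -/
theorem sub {xs : List G} {P : List Lv} (ok : Ok xs P) {n : ℕ}
    (inj : ∀ {c d : ℕ}, c < n → d < n → ev xs c = ev xs d → c = d) {L : List ℕ}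
    (hL : L.Nodup ∧ 0 ∈ L ∧ ∀ c ∈ L, c < n ∧ mu P c c = 0 ∧ ∀ d ∈ L, mu P c d ∈ L) :
    ∃ X : Subgroup G, (∀ x, x ∈ X ↔ ∃ c ∈ L, x = ev xs c) ∧ (∀ x ∈ X, x * x = 1) ∧ L.length ≤ Nat.card X := by
  have sq : ∀ c ∈ L, ev xs c * ev xs c = 1 := fun c hc => by rw [← ok.mul, (hL.2.2 c hc).2.1, ev_zero]
  let X : Subgroup G :=
    { carrier := {x | ∃ c ∈ L, x = ev xs c}
      mul_mem' := by
        rintro _ _ ⟨c, hc, rfl⟩ ⟨d, hd, rfl⟩
        exact ⟨_, (hL.2.2 c hc).2.2 d hd, (ok.mul c d).symm⟩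
      one_mem' := ⟨0, hL.2.1, (ev_zero xs).symm⟩
      inv_mem' := by
        rintro _ ⟨c, hc, rfl⟩
        exact ⟨c, hc, inv_eq_of_mul_eq_one_left (sq c hc)⟩ }
  refine ⟨X, fun _ => Iff.rfl, ?_, ?_⟩
  · rintro _ ⟨c, hc, rfl⟩
    exact sq c hc
  · rw [← Nat.card_fin L.length]
    refine Nat.card_le_card_of_injective (fun i => (⟨ev xs (L.get i), _, List.get_mem L i, rfl⟩ : X)) fun i j e => ?_
    exact List.nodup_iff_injective_get.1 hL.1
      (inj (hL.2.2 _ (List.get_mem L i)).1 (hL.2.2 _ (List.get_mem L j)).1 (congrArg Subtype.val e))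

theorem c1 : ∀ e m : Bool, ∀ c ∈ [124, 252, 380, 508], ∀ g < 512, cj (PS e m) g c ∈ [124, 252, 380, 508] := by
  decide +kernel

theorem c2 : ∀ e m : Bool, [0, 128, 256, 384, 124, 252, 380, 508].Nodup ∧
    0 ∈ [0, 128, 256, 384, 124, 252, 380, 508] ∧ ∀ c ∈ [0, 128, 256, 384, 124, 252, 380, 508],
      c < 512 ∧ mu (PS e m) c c = 0 ∧ ∀ d ∈ [0, 128, 256, 384, 124, 252, 380, 508],
        mu (PS e m) c d ∈ [0, 128, 256, 384, 124, 252, 380, 508] := by
  decide +kernel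

set_option synthInstance.maxSize 100000 in
theorem c3 : ∀ e m : Bool, ∀ c < 512, c % 4 = 3 → mu (PS e m) c c = 0 →
    ∃ r ∈ [3, 31, 15], ∃ g ∈ [28, 3, 19], cj (PS e m) (lk (wS e m) c) r = c ∧
      cj (PS e m) g r = mu (PS e m) r 256 ∧ cj (PS e m) 36 r = mu (PS e m) r 128 ∧
      ∀ x ∈ [0, 128, 256, 384, 124, 252, 380, 508], mu (PS e m) x r = mu (PS e m) r x ∧
        mu (PS e m) x g = mu (PS e m) g x ∧ mu (PS e m) x 36 = mu (PS e m) 36 x := by
  decide +kernel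

theorem c4 : [0, 1, 2, 3, 124, 125, 126, 127, 256, 257, 258, 259, 380, 381, 382, 383].Nodup ∧
    0 ∈ [0, 1, 2, 3, 124, 125, 126, 127, 256, 257, 258, 259, 380, 381, 382, 383] ∧
    ∀ c ∈ [0, 1, 2, 3, 124, 125, 126, 127, 256, 257, 258, 259, 380, 381, 382, 383],
      c < 512 ∧ mu (PS false true) c c = 0 ∧
      ∀ d ∈ [0, 1, 2, 3, 124, 125, 126, 127, 256, 257, 258, 259, 380, 381, 382, 383],
        mu (PS false true) c d ∈ [0, 1, 2, 3, 124, 125, 126, 127, 256, 257, 258, 259, 380, 381, 382, 383] := by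
  decide +kernel

set_option synthInstance.maxSize 100000 in
theorem c5 : ∀ c < 512, mu (PS false true) c c = 0 → c % 4 = 0 ∨ c % 4 = 3 ∨
    ∃ r ∈ [1, 2, 5, 62], cj (PS false true) (lk (wS false true) c) r = c := by
  decide +kernel

theorem c6 : mu (PS false true) 1 2 = 3 ∧ mu (PS false true) 125 2 = 127 ∧ mu (PS false true) 126 1 = 127 ∧
    cj (PS false true) 40 5 = 125 ∧ cj (PS false true) 12 62 = 126 := by
  decide +kernel

end SB1

namespace Fr
variable {F : Fr G} {a b p q um η π : G}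

theorem TS.sb1_sq (h : F.TS a b p um η π) {e m : Bool} (he : F.dl * F.dl = cond e F.t 1)
    (hm : um = cond m F.u1 1) {c : ℕ} (o : F.Om (ev (F.LS a b π) c)) : mu (PS e m) c c = 0 := by
  have ok := h.okS he hm
  have l := mu_lt (PS e m) c c
  rw [ok.len, show 2 ^ (F.LS a b π).length = 512 by simp [LS, LU]] at l
  exact h.injS l (by norm_num) (by rw [ok.mul, ev_zero, o.sq.1])

/-- `t v1 v2 a b F0` -/
theorem TS.ns0 (h : F.TS a b p um η π) {c : ℕ} (hc : c < 128) (h0 : c % 32 = 31) : ¬ F.Om (ev (F.LU a b) c) := by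
  obtain ⟨e, he⟩ := F.exe h.d1
  obtain ⟨m, hm⟩ := h.exm
  have k : 2 ^ (F.LS a b π).length = 512 := by simp [LS, LU]
  rw [← F.evS4 a b π]
  refine nOm (h.okS he hm) (h.kerS he hm) (L := [124, 252, 380, 508]) (fun g hg => ?_) ?_
  · rw [k] at hg
    exact SB1.c1 e m _ (by simp only [List.mem_cons, List.not_mem_nil, or_false]; omega) g hg
  · rw [k, F.cardTD h.d1]
    decide

theorem TS.sb1_n8 (h : F.TS a b p um η π) {c : ℕ} (hc : c < 512) (h0 : c % 8 = 0 ∨ c % 128 = 124) :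
    ¬ F.Om (ev (F.LS a b π) c) := by
  rw [show c = 4 * (c / 4) by omega, F.evS4]
  rcases h0 with h0 | h0
  · exact h.tw.n00 (h.mem00.2 ⟨c / 8, by omega, by rw [show c / 4 = 2 * (c / 8) by omega]⟩)
  · exact h.ns0 (by omega) (by omega)

/-- the coset of `dl π` -/
theorem TS.nzeta (h : F.TS a b p um η π) {c : ℕ} (hc : c < 512) (h3 : c % 4 = 3) :
    ¬ F.Om (ev (F.LS a b π) c) := by
  intro o
  obtain ⟨e, he⟩ := F.exe h.d1
  obtain ⟨m, hm⟩ := h.exm
  have ok := h.okS he hm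
  obtain ⟨r, -, g, -, e0, e1, e2, k⟩ := SB1.c3 e m c hc h3 (h.sb1_sq he hm o)
  obtain ⟨X, mem, sq, card⟩ := SB1.sub ok h.injS (SB1.c2 e m)
  have cen : ∀ y, (∀ x ∈ [0, 128, 256, 384, 124, 252, 380, 508], mu (PS e m) x y = mu (PS e m) y x) →
      ev (F.LS a b π) y ∈ 𝐂(X) := fun y hy => mem_centralizer_iff.2 fun x hx => by
    obtain ⟨d, hd, rfl⟩ := (mem x).1 hx
    rw [← ok.mul, ← ok.mul, hy d hd]
  rw [← e0, ok.cj] at o
  have := h.ca.k16 h.nx1 h.nx2 (o.of_cj _) sq card (cen r fun x hx => (k x hx).1) (fun x hx => by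
      obtain ⟨d, hd, rfl⟩ := (mem x).1 hx
      simp only [List.mem_cons, List.not_mem_nil, or_false] at hd
      exact h.sb1_n8 (by omega) (by omega))
    (cen g fun x hx => (k x hx).2.1) (cen 36 fun x hx => (k x hx).2.2)
    ((mem _).2 ⟨256, by simp, rfl⟩) ((mem _).2 ⟨128, by simp, rfl⟩)
    (by rw [← ok.cj, e1, ok.mul]) (by rw [← ok.cj, e2, ok.mul])
  rw [← ev_zero (F.LS a b π)] at this
  rcases this with k | k | k <;> exact absurd (h.injS (by norm_num) (by norm_num) k) (by norm_num)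

/-- `Ω ∩ U0` -/
theorem TS.omU (h : F.TS a b p um η π) {s : G} (hs : s ∈ F.U0 a b) (o : F.Om s) :
    ∃ c < 128, s = ev (F.LU a b) c ∧ mu PU c c = 0 ∧ c % 2 = 1 ∧ c % 32 ≠ 31 := by
  obtain ⟨c, hc, rfl⟩ := h.memU.1 hs
  have l := mu_lt PU c c
  rw [h.okU.len, show 2 ^ (F.LU a b).length = 128 by simp [LU]] at l
  refine ⟨c, hc, rfl, h.injU l (by norm_num) (by rw [h.okU.mul, ev_zero, o.sq.1]), ?_, fun k => h.ns0 hc k o⟩
  by_contra k
  exact h.tw.n00 (h.mem00.2 ⟨c / 2, by omega, by rw [show 2 * (c / 2) = c by omega]⟩) o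

/-- the case `dl² = 1`, `um = u1` -/
theorem TS.om01 (h : F.TS a b p um η π) (he : F.dl * F.dl = 1) (hm : um = F.u1) {s : G}
    (hs : s ∈ F.SS a b π) (o : F.Om s) : s ∈ F.U0 a b := by
  obtain ⟨c, hc, rfl⟩ := h.memS.1 hs
  have ok := h.okS (e := false) (m := true) he hm
  obtain ⟨X, mem, sq, card⟩ := SB1.sub ok h.injS SB1.c4
  obtain ⟨m1, m2, m3, j1, j2⟩ := SB1.c6
  have hyp : ∀ s x d : ℕ, s ∈ [0, 1, 2, 3, 124, 125, 126, 127, 256, 257, 258, 259, 380, 381, 382, 383] →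
      x ∈ [0, 1, 2, 3, 124, 125, 126, 127, 256, 257, 258, 259, 380, 381, 382, 383] →
      mu (PS false true) s x = d → d < 512 → d % 4 = 3 → ¬ F.Om (ev (F.LS a b π) x) →
      ¬ F.Om (ev (F.LS a b π) s) := fun s x d hs hx e hd h3 n o => by
    refine (h.ca.hyp o sq card ((mem _).2 ⟨s, hs, rfl⟩) ((mem _).2 ⟨x, hx, rfl⟩)).elim n fun k => ?_
    rw [← ok.mul, e] at k
    exact h.nzeta hd h3 k
  have n2 : ¬ F.Om (ev (F.LS a b π) 2) := fun k => by
    obtain ⟨g, e⟩ := h.πc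
    rw [show ev (F.LS a b π) 2 = π by simp [LS, LU, ev]] at k
    exact h.tw.zp.nOm (e ▸ k.cj g)
  have n1 := hyp 1 2 3 (by simp) (by simp) m1 (by norm_num) (by norm_num) n2
  have n125 := hyp 125 2 127 (by simp) (by simp) m2 (by norm_num) (by norm_num) n2
  have n126 := hyp 126 1 127 (by simp) (by simp) m3 (by norm_num) (by norm_num) n1
  rcases SB1.c5 c hc (h.sb1_sq (e := false) (m := true) he hm o) with k | k | ⟨r, hr, e⟩
  · rw [show c = 4 * (c / 4) by omega, F.evS4]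
    exact F.evU a b _
  · exact absurd o (h.nzeta hc k)
  · rw [← e, ok.cj] at o
    replace o := o.of_cj _
    simp only [List.mem_cons, List.not_mem_nil, or_false] at hr
    rcases hr with rfl | rfl | rfl | rfl
    · exact absurd o n1
    · exact absurd o n2
    · rw [← j1, ok.cj] at n125
      exact absurd (o.cj _) n125
    · rw [← j2, ok.cj] at n126
      exact absurd (o.cj _) n126

end Fr

end H60M.A6
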