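import Mathlib
import Cfsg.Agent.Lib.B6T.SB2
import Cfsg.Agent.Lib.Inv73.Transfer

/-! `dl² = t` is impossible. -/

set_option autoImplicit false
set_option maxRecDepth 100000

namespace H60M.A6

open Subgroup H69 H36.SW H80.PC

variable {G : Type*} [Group G] [Finite G]

theorem SE_sq : ∀ m : Bool, ∀ c < 256, mu (PM true m) c c % 4 = 0 ∧ mu (PM true m) c c < 256 := by
  decide +kernel

theorem SE_inv : ∀ m : Bool, ∀ c < 512, mu (PS true m) c c = 0 → c % 2 = 0 ∨ c % 4 = 3 := by
  decide +kernel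

namespace Fr
variable {F : Fr G} {a b p q um η π : G}

theorem TS.se (h : F.TS a b p um η π) (he : F.dl * F.dl = F.t) : False := by
  obtain ⟨m, hm⟩ := h.exm
  have he' : F.dl * F.dl = cond true F.t 1 := he
  have oM := h.okM he' hm
  have oS := h.okS he' hm
  have lM : 2 ^ (π :: F.LU a b).length = 256 := by simp [LU]
  have lS : 2 ^ (F.LS a b π).length = 512 := by simp [LS, LU]
  have e2 : ∀ c, ev (F.LS a b π) (2 * c) = ev (π :: F.LU a b) c := fun c => by rw [LS, ev_bit0]
  have kM : Ker (π :: F.LU a b) := fun c hc e => by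
    rw [lM] at hc
    have := h.kerS he' hm (2 * c) (by rw [lS]; omega) ((e2 c).trans e)
    omega
  have MS : closure {x | x ∈ π :: F.LU a b} ≤ F.SS a b π := by
    rw [F.SS_eq]
    exact closure_mono fun x hx => List.mem_cons_of_mem _ hx
  have hM : (closure {x | x ∈ π :: F.LU a b}).relIndex (F.SS a b π) = 2 := by
    have k1 := ((closure {x | x ∈ π :: F.LU a b}).subgroupOf (F.SS a b π)).card_mul_index
    rw [Nat.card_congr (subgroupOfEquivOfLe MS).toEquiv, oM.card kM, lM, h.cardS] at k1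
    unfold relIndex
    omega
  have hH : Odd (F.SS a b π).index := by
    have := h.syl.not_dvd_relIndex
    rw [relIndex_top_right] at this
    exact Nat.odd_iff.2 (Nat.two_dvd_ne_zero.1 this)
  have d2 : F.dl ^ 2 = F.t := by rw [pow_two, he]
  have d4 : F.dl ^ 2 ^ 2 = 1 := by rw [show 2 ^ 2 = 2 * 2 by rfl, pow_mul, d2, pow_two, F.tt]
  have ho : orderOf F.dl = 2 ^ 2 :=
    orderOf_eq_prime_pow (n := 1) (by rw [pow_one, d2]; exact F.t1) d4
  obtain ⟨N, hN, hi, hx⟩ := H73.exists_index_two_of_transfer (F.SS a b π) _ hH hM F.dl ho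
    (fun g hg => by
      obtain ⟨c, hc, e⟩ := oM.mem.1 hg
      rw [lM] at hc
      obtain ⟨k1, k2⟩ := SE_sq m c hc
      have e3 : g * F.t * g⁻¹ = ev (π :: F.LU a b) (mu (PM true m) c c) := by
        rw [oM.mul, ← e, ← he]; group
      obtain ⟨k, hk⟩ : ∃ k, mu (PM true m) c c = 2 * (2 * k) := ⟨mu (PM true m) c c / 4, by omega⟩
      rw [hk] at k2
      rw [hk, ev_bit0] at e3
      exact h.tw.n00 (h.mem00.2 ⟨k, by omega, rfl⟩) ⟨g, e3⟩)
    (fun g i h1 h2 hg _ => by
      rcases (by omega : i = 1 ∨ i = 2) with rfl | rfl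
      · rw [pow_one, d2] at hg ⊢
        obtain ⟨c, hc, e⟩ := h.memS.1 hg
        have o : F.Om (ev (F.LS a b π) c) := ⟨g, e⟩
        have k0 : mu (PS true m) c c = 0 := by
          refine h.injS ?_ (by norm_num) (by rw [oS.mul, o.sq.1, ev_zero])
          have := mu_lt (PS true m) c c
          rwa [oS.len, lS] at this
        rcases SE_inv m c hc k0 with k1 | k1
        · obtain ⟨k, rfl⟩ : ∃ k, c = 2 * k := ⟨c / 2, by omega⟩
          rw [e, e2]
          exact ev_mem (fun _ hx => subset_closure hx) k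
        · exact absurd o (h.nzeta hc k1)
      · rw [d4]; simp)
  have hE : F.E ≤ N := by
    haveI := F.Es
    haveI := F.En
    rcases (hN.subgroupOf F.E).eq_bot_or_eq_top with k | k
    · exfalso
      refine F.ncE fun x hx y hy => ?_
      have k1 : y * x * y⁻¹ * x⁻¹ ∈ N := by
        rw [mul_mem_iff_of_index_two hi, mul_mem_iff_of_index_two hi, mul_mem_iff_of_index_two hi,
          inv_mem_iff, inv_mem_iff]
        tauto
      have k2 : (⟨_, F.comm_mem y x⟩ : F.E) ∈ N.subgroupOf F.E := k1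
      rw [k, mem_bot, Subtype.ext_iff] at k2
      have k3 : y * x * y⁻¹ * x⁻¹ = 1 := k2
      rwa [mul_inv_eq_one, mul_inv_eq_iff_eq_mul] at k3
    · exact subgroupOf_eq_top.1 k
  have ht : F.t ∈ N := he ▸ mul_self_mem_of_index_two hi _
  rcases F.top F.dl with k | k
  · exact hx (hE k)
  · exact hx ((mul_mem_cancel_right ht).1 (hE k))

end Fr

end H60M.A6
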